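import Mathlib
import Cfsg.Agent.Lib.Helper23.SnB.NQDefs
import Cfsg.Agent.Lib.Helper6.SnB.QSBF
import Cfsg.Agent.Lib.Helper96.SnB.QSRes

/-!
# S2986 (helper41 / helper23 project): sub-package [NQ-EXT] (helper24)

Extraction of the abstract facts `NQF` used by the non-quadratic argument.
-/

set_option autoImplicit false

namespace Cfsg.Agent.Lib.Helper24.SnB

open Cfsg Cfsg.Agent.Lib.Helper41.SnB Cfsg.Agent.Lib.Helper34.SnB Cfsg.Agent.Lib.Helper23.SnB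
open scoped commutatorElement

universe u

/-- [NQ-EXT] -/
theorem pkgNQExt : PkgNQExt.{u} := by
  intro G _ _ p _ p3 S₀ X K z b hS hX hQ8 hExc hb
  subst p3
  have bf : BF 3 X :=
    Cfsg.Agent.Lib.Helper6.SnB.pkgBF_of Cfsg.Agent.Lib.Helper96.SnB.pkgRes X hX
  have hnQ' : Subgroup.normalizer (X : Set G) ≤
      Subgroup.normalizer ((Qb 3 X : Subgroup G) : Set G) :=
    Cfsg.Agent.Lib.Helper47.normalizer_le_normalizer_pCoreOf 3 X
  have hnQW : Subgroup.normalizer ((Qb 3 X : Subgroup G) : Set G) ≤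
      Subgroup.normalizer ((Wb 3 X : Subgroup G) : Set G) :=
    Cfsg.Agent.Lib.Helper85.BB.normalizer_le_normalizer_omegaOneCenter 3 _
  have hnC' : Subgroup.normalizer (X : Set G) ≤
      Subgroup.normalizer ((Subgroup.centralizer (X : Set G) : Subgroup G) : Set G) :=
    Cfsg.Agent.Lib.Helper47.normalizer_le_normalizer_centralizer X
  have hnZ : Subgroup.normalizer (X : Set G) ≤
      Subgroup.normalizer ((Zb 3 X : Subgroup G) : Set G) := by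
    intro g hg
    have h1 := hnQW (hnQ' hg)
    have h2 := hnC' hg
    rw [Subgroup.mem_normalizer_iff] at h1 h2 ⊢
    intro x
    constructor
    · intro hx
      exact Subgroup.mem_inf.mpr ⟨(h1 x).mp (Subgroup.mem_inf.mp hx).1,
        (h2 x).mp (Subgroup.mem_inf.mp hx).2⟩
    · intro hx
      exact Subgroup.mem_inf.mpr ⟨(h1 x).mpr (Subgroup.mem_inf.mp hx).1,
        (h2 x).mpr (Subgroup.mem_inf.mp hx).2⟩
  -- `W` is abelian
  have hWab : ∀ w ∈ Wb 3 X, ∀ w' ∈ Wb 3 X, w * w' = w' * w :=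
    fun w hw w' hw' => bf.WcQ w hw w' (bf.WQ hw')
  -- `A ⊓ Z = ⊥`
  have hAZbot : ∀ a ∈ Ab 3 X, a ∈ Zb 3 X → a = 1 := by
    intro a ha haZ
    have h1 : z * a * z⁻¹ = a⁻¹ := hQ8.invA a ha
    have h2 : a * z = z * a := bf.ZC a haZ z (hQ8.KX hQ8.zK)
    have h3 : z * a * z⁻¹ = a := by
      rw [← h2]; group
    have h4 : a * a = 1 := mul_eq_one_iff_eq_inv.mpr (h3.symm.trans h1)
    have h5 : a ^ 9 = 1 := by
      have h6 : (⟨a, ha⟩ : ↥(Ab 3 X)) ^ Nat.card ↥(Ab 3 X) = 1 := pow_card_eq_one'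
      rw [hQ8.cardA] at h6
      have h7 := congrArg (Subtype.val) h6
      simpa using h7
    have h8 : a ^ 9 = (a ^ 2) ^ 4 * a := by rw [← pow_mul, ← pow_succ]
    rw [h8, pow_two, h4, one_pow, one_mul] at h5
    exact h5
  have hAW : Ab 3 X ≤ Wb 3 X := bf.AW
  have hZW : Zb 3 X ≤ Wb 3 X := inf_le_left
  -- `|W| = 27`
  have hcardW : Nat.card ↥(Wb 3 X) = 27 := by
    let f : ↥(Ab 3 X) × ↥(Zb 3 X) → ↥(Wb 3 X) :=
      fun q => ⟨(q.1 : G) * (q.2 : G), (Wb 3 X).mul_mem (hAW q.1.2) (hZW q.2.2)⟩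
    have hf : Function.Bijective f := by
      constructor
      · rintro ⟨⟨a, ha⟩, ⟨ζ, hζ⟩⟩ ⟨⟨a', ha'⟩, ⟨ζ', hζ'⟩⟩ h
        have h1 : a * ζ = a' * ζ' := congrArg Subtype.val h
        have h2 : a'⁻¹ * a = ζ' * ζ⁻¹ := by
          calc a'⁻¹ * a = a'⁻¹ * (a * ζ) * ζ⁻¹ := by group
            _ = a'⁻¹ * (a' * ζ') * ζ⁻¹ := by rw [h1]
            _ = ζ' * ζ⁻¹ := by group
        have h3 : a'⁻¹ * a ∈ Ab 3 X := (Ab 3 X).mul_mem ((Ab 3 X).inv_mem ha') ha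
        have h4 : a'⁻¹ * a ∈ Zb 3 X := by
          rw [h2]; exact (Zb 3 X).mul_mem hζ' ((Zb 3 X).inv_mem hζ)
        have h5 : a'⁻¹ * a = 1 := hAZbot _ h3 h4
        have h6 : a = a' := by
          calc a = a' * (a'⁻¹ * a) := by group
            _ = a' := by rw [h5, mul_one]
        have h7 : ζ = ζ' := by
          have : ζ' * ζ⁻¹ = 1 := by rw [← h2, h5]
          calc ζ = (ζ' * ζ⁻¹)⁻¹ * ζ' := by group
            _ = ζ' := by rw [this, inv_one, one_mul]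
        subst h6; subst h7; rfl
      · rintro ⟨w, hw⟩
        obtain ⟨a, ha, ζ, hζ, rfl⟩ := hExc.WAZ w hw
        exact ⟨⟨⟨a, ha⟩, ⟨ζ, hζ⟩⟩, rfl⟩
    rw [← Nat.card_congr (Equiv.ofBijective f hf), Nat.card_prod, hQ8.cardA, hExc.cardZ]
  have hP3 : IsPGroup 3 ↥(pCore 3 G) := Cfsg.Agent.Lib.Helper6.SnB.pCore_isPGroup_bf 3 G
  have hPn : (pCore 3 G).Normal := Cfsg.Agent.Lib.Helper6.SnB.pCore_normal_bf 3 G
  refine
    { S2 := hS.1
      syl := hS.2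
      Pn := hPn
      P3 := hP3
      PX := hX.PN
      XP := hX.EP
      nQ := hnQ'
      nQW := hnQW
      nZ := hnZ
      QP := hX.QP
      WQ := bf.WQ
      ZW := hZW
      Wc := bf.WcQ
      comm := ?_
      WP := ?_
      cardZ := hExc.cardZ
      cardW := hcardW
      cardQ := hExc.cardQ
      cover := hExc.coverQ
      bX := hb.1
      bp := hb.2.1
      bq := hb.2.2 }
  · intro u hu v hv
    have h1 : ⁅u, v⁆ ∈ ⁅Qb 3 X, Qb 3 X⁆ := Subgroup.commutator_mem_commutator hu hv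
    rw [hExc.comm, commutatorElement_def] at h1
    exact h1
  · intro c hc w hw
    obtain ⟨a, ha, ζ, hζ, rfl⟩ := hExc.WAZ w hw
    have h1 : c * a = a * c := bf.PA c hc a ha
    have h2 : c * ζ * c⁻¹ ∈ Zb 3 X := bf.nZ c (hX.PN hc) ζ hζ
    have h3 : c * ζ * c⁻¹ * ζ⁻¹ ∈ Zb 3 X := (Zb 3 X).mul_mem h2 ((Zb 3 X).inv_mem hζ)
    have h4 : a * (c * ζ * c⁻¹ * ζ⁻¹) = (c * ζ * c⁻¹ * ζ⁻¹) * a := hWab a (hAW ha) _ (hZW h3)
    have h5 : c * (a * ζ) * c⁻¹ * (a * ζ)⁻¹ = c * ζ * c⁻¹ * ζ⁻¹ := by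
      calc c * (a * ζ) * c⁻¹ * (a * ζ)⁻¹ = (c * a) * (ζ * c⁻¹ * ζ⁻¹) * a⁻¹ := by group
        _ = (a * c) * (ζ * c⁻¹ * ζ⁻¹) * a⁻¹ := by rw [h1]
        _ = (a * (c * ζ * c⁻¹ * ζ⁻¹)) * a⁻¹ := by group
        _ = ((c * ζ * c⁻¹ * ζ⁻¹) * a) * a⁻¹ := by rw [h4]
        _ = c * ζ * c⁻¹ * ζ⁻¹ := by group
    rw [h5]
    exact h3

end Cfsg.Agent.Lib.Helper24.SnB
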