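import Mathlib
import Cfsg.Agent.Lib.Helper83.SnB.Q8MDefs

/-!
# S2986 (helper41 / helper83 project, [Q8-M]): tools for the two-block packages (helper24)
-/

set_option autoImplicit false

namespace Cfsg.Agent.Lib.Helper24.SnB

open Cfsg Cfsg.Agent.Lib.Helper41.SnB Cfsg.Agent.Lib.Helper34.SnB Cfsg.Agent.Lib.Helper83.SnB
open scoped commutatorElement

universe u

variable {G : Type u} [Group G]

/-- membership in the normalizer from the two elementwise inclusions -/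
theorem mem_normalizer_of_both {U : Subgroup G} {x : G} (h1 : ∀ y ∈ U, x * y * x⁻¹ ∈ U)
    (h2 : ∀ y ∈ U, x⁻¹ * y * x ∈ U) : x ∈ Subgroup.normalizer (U : Set G) := by
  rw [Subgroup.mem_normalizer_iff]
  intro y
  constructor
  · exact h1 y
  · intro hy
    have h3 := h2 _ hy
    have e : x⁻¹ * (x * y * x⁻¹) * x = y := by group
    rwa [e] at h3

theorem conj_mem_of_normalizer {U : Subgroup G} {x : G}
    (hx : x ∈ Subgroup.normalizer (U : Set G)) : ∀ y ∈ U, x * y * x⁻¹ ∈ U :=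
  fun y hy => (Subgroup.mem_normalizer_iff.mp hx y).mp hy

theorem conj_mem_of_normalizer' {U : Subgroup G} {x : G}
    (hx : x ∈ Subgroup.normalizer (U : Set G)) : ∀ y ∈ U, x⁻¹ * y * x ∈ U := by
  intro y hy
  have h := conj_mem_of_normalizer ((Subgroup.normalizer (U : Set G)).inv_mem hx) y hy
  rwa [inv_inv] at h

/-- conjugation by `x` maps `H₁ ⊔ H₂` into `R` if it does so for `H₁` and `H₂` -/
theorem conj_sup_mem {H₁ H₂ R : Subgroup G} {x : G} (h1 : ∀ y ∈ H₁, x * y * x⁻¹ ∈ R)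
    (h2 : ∀ y ∈ H₂, x * y * x⁻¹ ∈ R) : ∀ y ∈ H₁ ⊔ H₂, x * y * x⁻¹ ∈ R := by
  have hle : H₁ ⊔ H₂ ≤ R.comap (MulAut.conj x).toMonoidHom := by
    apply sup_le
    · intro y hy
      rw [Subgroup.mem_comap]
      simpa using h1 y hy
    · intro y hy
      rw [Subgroup.mem_comap]
      simpa using h2 y hy
  intro y hy
  have h := hle hy
  rw [Subgroup.mem_comap] at h
  simpa using h

/-- `x` commutes with `H₁ ⊔ H₂` if it does with `H₁` and `H₂` -/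
theorem comm_sup {H₁ H₂ : Subgroup G} {x : G} (h1 : ∀ y ∈ H₁, x * y = y * x)
    (h2 : ∀ y ∈ H₂, x * y = y * x) : ∀ y ∈ H₁ ⊔ H₂, x * y = y * x := by
  have hle : H₁ ⊔ H₂ ≤ Subgroup.centralizer ({x} : Set G) := by
    apply sup_le
    · intro y hy
      rw [Subgroup.mem_centralizer_iff]
      intro g hg
      rw [Set.mem_singleton_iff] at hg
      subst hg
      exact h1 y hy
    · intro y hy
      rw [Subgroup.mem_centralizer_iff]
      intro g hg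
      rw [Set.mem_singleton_iff] at hg
      subst hg
      exact h2 y hy
  intro y hy
  have h := hle hy
  rw [Subgroup.mem_centralizer_iff] at h
  exact h x rfl

/-- the elements normalizing `U` and acting trivially on `H` modulo `U` -/
def trivOn (H U : Subgroup G) : Subgroup G where
  carrier := {x | x ∈ Subgroup.normalizer (U : Set G) ∧ ∀ h ∈ H, x * h * x⁻¹ * h⁻¹ ∈ U}
  one_mem' := ⟨Subgroup.one_mem _, fun h _ => by
    have e : (1 : G) * h * 1⁻¹ * h⁻¹ = 1 := by group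
    rw [e]
    exact U.one_mem⟩
  mul_mem' := by
    rintro x y ⟨hx, hx'⟩ ⟨hy, hy'⟩
    refine ⟨Subgroup.mul_mem _ hx hy, fun h hh => ?_⟩
    have e : x * y * h * (x * y)⁻¹ * h⁻¹ =
        x * (y * h * y⁻¹ * h⁻¹) * x⁻¹ * (x * h * x⁻¹ * h⁻¹) := by group
    rw [e]
    exact U.mul_mem (conj_mem_of_normalizer hx _ (hy' h hh)) (hx' h hh)
  inv_mem' := by
    rintro x ⟨hx, hx'⟩
    refine ⟨Subgroup.inv_mem _ hx, fun h hh => ?_⟩
    have e : x⁻¹ * h * x⁻¹⁻¹ * h⁻¹ = x⁻¹ * (x * h * x⁻¹ * h⁻¹)⁻¹ * x := by group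
    rw [e]
    exact conj_mem_of_normalizer' hx _ (U.inv_mem (hx' h hh))

theorem mem_trivOn {H U : Subgroup G} {x : G} :
    x ∈ trivOn H U ↔
      x ∈ Subgroup.normalizer (U : Set G) ∧ ∀ h ∈ H, x * h * x⁻¹ * h⁻¹ ∈ U := Iff.rfl

/-- conjugating an element of `trivOn H U` by an element normalizing `U` and `H` -/
theorem trivOn_conj {H U : Subgroup G} {k l : G} (hl : l ∈ trivOn H U)
    (hk : k ∈ Subgroup.normalizer (U : Set G)) (hkH : ∀ h ∈ H, k⁻¹ * h * k ∈ H) :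
    k * l * k⁻¹ ∈ trivOn H U := by
  refine ⟨Subgroup.mul_mem _ (Subgroup.mul_mem _ hk hl.1) (Subgroup.inv_mem _ hk), fun h hh => ?_⟩
  have e : k * l * k⁻¹ * h * (k * l * k⁻¹)⁻¹ * h⁻¹ =
      k * (l * (k⁻¹ * h * k) * l⁻¹ * (k⁻¹ * h * k)⁻¹) * k⁻¹ := by group
  rw [e]
  exact conj_mem_of_normalizer hk _ (hl.2 _ (hkH h hh))

/-- the elements `h` normalizing `U` with `[x, h] ∈ U` -/
def fixMod (x : G) (U : Subgroup G) : Subgroup G where
  carrier := {h | h ∈ Subgroup.normalizer (U : Set G) ∧ x * h * x⁻¹ * h⁻¹ ∈ U}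
  one_mem' := ⟨Subgroup.one_mem _, by
    have e : x * 1 * x⁻¹ * (1 : G)⁻¹ = 1 := by group
    rw [e]
    exact U.one_mem⟩
  mul_mem' := by
    rintro h h' ⟨hn, hh⟩ ⟨hn', hh'⟩
    refine ⟨Subgroup.mul_mem _ hn hn', ?_⟩
    have e : x * (h * h') * x⁻¹ * (h * h')⁻¹ =
        (x * h * x⁻¹ * h⁻¹) * (h * (x * h' * x⁻¹ * h'⁻¹) * h⁻¹) := by group
    rw [e]
    exact U.mul_mem hh (conj_mem_of_normalizer hn _ hh')
  inv_mem' := by
    rintro h ⟨hn, hh⟩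
    refine ⟨Subgroup.inv_mem _ hn, ?_⟩
    have e : x * h⁻¹ * x⁻¹ * h⁻¹⁻¹ = h⁻¹ * (x * h * x⁻¹ * h⁻¹)⁻¹ * h := by group
    rw [e]
    exact conj_mem_of_normalizer' hn _ (U.inv_mem hh)

/-- two elements inverting `R` modulo the normal subgroup `V`: their product is trivial on
`R` modulo `V` -/
theorem triv_of_inv_inv {R V : Subgroup G} (hV : ∀ g : G, ∀ v ∈ V, g * v * g⁻¹ ∈ V) {x y : G}
    (hx : ∀ r ∈ R, x * r * x⁻¹ * r ∈ V) (hy : ∀ r ∈ R, y * r * y⁻¹ * r ∈ V) :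
    ∀ r ∈ R, (x * y) * r * (x * y)⁻¹ * r⁻¹ ∈ V := by
  intro r hr
  have e : (x * y) * r * (x * y)⁻¹ * r⁻¹ =
      x * (y * r * y⁻¹ * r) * x⁻¹ * (x * r⁻¹ * x⁻¹ * r⁻¹) := by group
  rw [e]
  exact V.mul_mem (hV x _ (hy r hr)) (hx r⁻¹ (R.inv_mem hr))

/-- `[k, l]` commutes with `A` if `l` centralizes `A` and `k` normalizes `A` -/
theorem comm_comm_left {A : Subgroup G} {k l : G} (hk : ∀ a ∈ A, k⁻¹ * a * k ∈ A)
    (hl : ∀ a ∈ A, l * a = a * l) :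
    ∀ a ∈ A, (k * l * k⁻¹ * l⁻¹) * a = a * (k * l * k⁻¹ * l⁻¹) := by
  intro a ha
  have h1 : k * l * k⁻¹ * a = a * (k * l * k⁻¹) := by
    have e1 : k * l * k⁻¹ * a = k * (l * (k⁻¹ * a * k)) * k⁻¹ := by group
    have e2 : a * (k * l * k⁻¹) = k * ((k⁻¹ * a * k) * l) * k⁻¹ := by group
    rw [e1, e2, hl _ (hk a ha)]
  have h2 : l⁻¹ * a = a * l⁻¹ := by
    calc l⁻¹ * a = l⁻¹ * (a * l) * l⁻¹ := by group
      _ = l⁻¹ * (l * a) * l⁻¹ := by rw [hl a ha]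
      _ = a * l⁻¹ := by group
  calc (k * l * k⁻¹ * l⁻¹) * a = (k * l * k⁻¹) * (l⁻¹ * a) := by group
    _ = (k * l * k⁻¹) * (a * l⁻¹) := by rw [h2]
    _ = (k * l * k⁻¹ * a) * l⁻¹ := by group
    _ = (a * (k * l * k⁻¹)) * l⁻¹ := by rw [h1]
    _ = a * (k * l * k⁻¹ * l⁻¹) := by group

/-- `[k, l]` commutes with `A` if `k` centralizes `A` and `l` normalizes `A` -/
theorem comm_comm_right {A : Subgroup G} {k l : G} (hl : ∀ a ∈ A, l⁻¹ * a * l ∈ A)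
    (hk : ∀ a ∈ A, k * a = a * k) :
    ∀ a ∈ A, (k * l * k⁻¹ * l⁻¹) * a = a * (k * l * k⁻¹ * l⁻¹) := by
  intro a ha
  have hk' : ∀ a ∈ A, k⁻¹ * a = a * k⁻¹ := by
    intro a ha
    calc k⁻¹ * a = k⁻¹ * (a * k) * k⁻¹ := by group
      _ = k⁻¹ * (k * a) * k⁻¹ := by rw [hk a ha]
      _ = a * k⁻¹ := by group
  have h1 : l * k⁻¹ * l⁻¹ * a = a * (l * k⁻¹ * l⁻¹) := by
    have e1 : l * k⁻¹ * l⁻¹ * a = l * (k⁻¹ * (l⁻¹ * a * l)) * l⁻¹ := by group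
    have e2 : a * (l * k⁻¹ * l⁻¹) = l * ((l⁻¹ * a * l) * k⁻¹) * l⁻¹ := by group
    rw [e1, e2, hk' _ (hl a ha)]
  calc (k * l * k⁻¹ * l⁻¹) * a = k * (l * k⁻¹ * l⁻¹ * a) := by group
    _ = k * (a * (l * k⁻¹ * l⁻¹)) := by rw [h1]
    _ = (k * a) * (l * k⁻¹ * l⁻¹) := by group
    _ = (a * k) * (l * k⁻¹ * l⁻¹) := by rw [hk a ha]
    _ = a * (k * l * k⁻¹ * l⁻¹) := by group

/-- central factors drop out of a commutator -/
theorem comm_mul_central {w u w' u' : G} (hwu : w * u = u * w) (hwu' : w * u' = u' * w)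
    (hw'u : w' * u = u * w') (hw'u' : w' * u' = u' * w') (hww' : w * w' = w' * w) :
    (w * u) * (w' * u') * (w * u)⁻¹ * (w' * u')⁻¹ = u * u' * u⁻¹ * u'⁻¹ := by
  have c1 : Commute w u := hwu
  have c2 : Commute w u' := hwu'
  have c3 : Commute w' u := hw'u
  have c4 : Commute w' u' := hw'u'
  have c5 : Commute w w' := hww'
  have d1 : Commute w (u * w' * u' * u⁻¹) :=
    ((c1.mul_right c5).mul_right c2).mul_right c1.inv_right
  have d2 : Commute w' (u * u' * u⁻¹ * u'⁻¹) :=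
    ((c3.mul_right c4).mul_right c3.inv_right).mul_right c4.inv_right
  have e1 : (w * u) * (w' * u') * (w * u)⁻¹ * (w' * u')⁻¹ =
      (w * (u * w' * u' * u⁻¹) * w⁻¹) * u'⁻¹ * w'⁻¹ := by group
  have e2 : w * (u * w' * u' * u⁻¹) * w⁻¹ = u * w' * u' * u⁻¹ := by
    rw [d1.eq, mul_inv_cancel_right]
  have e3 : u * w' * u' * u⁻¹ * u'⁻¹ * w'⁻¹ = (u * w') * (u' * u⁻¹ * u'⁻¹) * w'⁻¹ := by group
  have e4 : (w' * u) * (u' * u⁻¹ * u'⁻¹) * w'⁻¹ = w' * (u * u' * u⁻¹ * u'⁻¹) * w'⁻¹ := by group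
  rw [e1, e2, e3, ← c3.eq, e4, d2.eq, mul_inv_cancel_right]

section Blocks

variable [Finite G] {p : ℕ} [Fact p.Prime] {S₀ E F KE KF : Subgroup G} {zE zF : G}

/-- every element normalizes `V` -/
theorem mem_normalizer_V (gf : GF p S₀) (x : G) :
    x ∈ Subgroup.normalizer ((Vb p G : Subgroup G) : Set G) :=
  mem_normalizer_of_both (gf.Vn x) (fun y hy => by
    have h := gf.Vn x⁻¹ y hy
    rwa [inv_inv] at h)

/-- the chain argument: `g ∈ S₀` trivial on the factors of `⊥ ≤ B ≤ V ≤ R ≤ P` is `1` -/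
theorem chain3 (gf : GF p S₀) {g : G} (hg : g ∈ S₀) (B R : Subgroup G) (hBV : B ≤ Vb p G)
    (hVR : Vb p G ≤ R) (hRP : R ≤ pCore p G) (h0 : ∀ b ∈ B, g * b = b * g)
    (h1 : ∀ v ∈ Vb p G, g * v * g⁻¹ * v⁻¹ ∈ B) (h2 : ∀ r ∈ R, g * r * g⁻¹ * r⁻¹ ∈ Vb p G)
    (h3 : ∀ c ∈ pCore p G, g * c * g⁻¹ * c⁻¹ ∈ R) : g = 1 := by
  have hg2 := gf.S2 g hg
  have s1 : ∀ v ∈ Vb p G, g * v = v * g :=
    coprimeChain (Vb p G) B g (fun h hh => gf.Pp h (gf.VP hh)) hg2 hBV h0 h1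
  have s2 : ∀ r ∈ R, g * r = r * g :=
    coprimeChain R (Vb p G) g (fun h hh => gf.Pp h (hRP hh)) hg2 hVR s1 h2
  have s3 : ∀ c ∈ pCore p G, g * c = c * g :=
    coprimeChain (pCore p G) R g (fun h hh => gf.Pp h hh) hg2 hRP s2 h3
  exact gf.ST g hg s3

/-- elements of `K` normalize `Q`, in both directions -/
theorem K_conj_Q (oE : OB p S₀ E KE zE) {k : G} (hk : k ∈ KE) :
    ∀ u ∈ Qb p E, k * u * k⁻¹ ∈ Qb p E :=
  fun u hu => oE.bf.nQ k (Subgroup.le_normalizer (oE.q8.KX hk)) u hu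

theorem K_conj_Q' (oE : OB p S₀ E KE zE) {k : G} (hk : k ∈ KE) :
    ∀ u ∈ Qb p E, k⁻¹ * u * k ∈ Qb p E := by
  intro u hu
  have h := K_conj_Q oE (KE.inv_mem hk) u hu
  rwa [inv_inv] at h

theorem K_conj_A (oE : OB p S₀ E KE zE) {k : G} (hk : k ∈ KE) :
    ∀ u ∈ Ab p E, k * u * k⁻¹ ∈ Ab p E :=
  fun u hu => oE.bf.nA k (Subgroup.le_normalizer (oE.q8.KX hk)) u hu

theorem K_conj_A' (oE : OB p S₀ E KE zE) {k : G} (hk : k ∈ KE) :
    ∀ u ∈ Ab p E, k⁻¹ * u * k ∈ Ab p E := by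
  intro u hu
  have h := K_conj_A oE (KE.inv_mem hk) u hu
  rwa [inv_inv] at h

/-- an element commuting with `a` fixes it under conjugation -/
theorem conj_eq_of_comm {x a : G} (h : x * a = a * x) : x * a * x⁻¹ = a := by
  rw [h, mul_inv_cancel_right]

theorem conj_eq_of_comm' {x a : G} (h : x * a = a * x) : x⁻¹ * a * x = a := by
  rw [mul_assoc, ← h, inv_mul_cancel_left]

/-- `B = A_E ⊔ A_F` is normalized by `K_E` when `K_E` centralizes `A_F` -/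
theorem K_mem_normalizer_B (oE : OB p S₀ E KE zE) (hc2 : Cz KE (Ab p F)) {k : G}
    (hk : k ∈ KE) : k ∈ Subgroup.normalizer ((Ab p E ⊔ Ab p F : Subgroup G) : Set G) := by
  apply mem_normalizer_of_both
  · apply conj_sup_mem
    · intro y hy
      exact (le_sup_left : Ab p E ≤ Ab p E ⊔ Ab p F) (K_conj_A oE hk y hy)
    · intro y hy
      rw [conj_eq_of_comm (hc2 k hk y hy)]
      exact (le_sup_right : Ab p F ≤ Ab p E ⊔ Ab p F) hy
  · intro y hy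
    have h : ∀ y ∈ Ab p E ⊔ Ab p F, k⁻¹ * y * k⁻¹⁻¹ ∈ Ab p E ⊔ Ab p F := by
      apply conj_sup_mem
      · intro y hy
        exact (le_sup_left : Ab p E ≤ Ab p E ⊔ Ab p F) (K_conj_A oE (KE.inv_mem hk) y hy)
      · intro y hy
        rw [conj_eq_of_comm (hc2 k⁻¹ (KE.inv_mem hk) y hy)]
        exact (le_sup_right : Ab p F ≤ Ab p E ⊔ Ab p F) hy
    have h' := h y hy
    rwa [inv_inv] at h'

/-- `K_E` acts trivially on `V` modulo `B = A_E ⊔ A_F` -/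
theorem K_mem_trivOn_VB (oE : OB p S₀ E KE zE) (hc2 : Cz KE (Ab p F)) {k : G}
    (hk : k ∈ KE) : k ∈ trivOn (Vb p G) (Ab p E ⊔ Ab p F) :=
  ⟨K_mem_normalizer_B oE hc2 hk, fun v hv =>
    (le_sup_left : Ab p E ≤ Ab p E ⊔ Ab p F) (oE.q8.VA v hv k (oE.q8.KX hk))⟩

/-- `[k, l]` centralizes `B = A_E ⊔ A_F` and is trivial on `V / B` -/
theorem comm_KK_VB (oE : OB p S₀ E KE zE) (oF : OB p S₀ F KF zF)
    (hc1 : Cz KF (Ab p E)) (hc2 : Cz KE (Ab p F)) {k l : G} (hk : k ∈ KE) (hl : l ∈ KF) :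
    (∀ b ∈ Ab p E ⊔ Ab p F, (k * l * k⁻¹ * l⁻¹) * b = b * (k * l * k⁻¹ * l⁻¹)) ∧
      (∀ v ∈ Vb p G, (k * l * k⁻¹ * l⁻¹) * v * (k * l * k⁻¹ * l⁻¹)⁻¹ * v⁻¹ ∈
        Ab p E ⊔ Ab p F) := by
  constructor
  · apply comm_sup
    · exact comm_comm_left (K_conj_A' oE hk) (hc1 l hl)
    · exact comm_comm_right (K_conj_A' oF hl) (hc2 k hk)
  · have hk' : k ∈ trivOn (Vb p G) (Ab p E ⊔ Ab p F) := K_mem_trivOn_VB oE hc2 hk
    have hl' : l ∈ trivOn (Vb p G) (Ab p E ⊔ Ab p F) := by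
      have h := K_mem_trivOn_VB (F := E) oF hc1 hl
      rwa [sup_comm] at h
    have hg : k * l * k⁻¹ * l⁻¹ ∈ trivOn (Vb p G) (Ab p E ⊔ Ab p F) :=
      Subgroup.mul_mem _ (Subgroup.mul_mem _ (Subgroup.mul_mem _ hk' hl')
        (Subgroup.inv_mem _ hk')) (Subgroup.inv_mem _ hl')
    exact hg.2

/-- `A_E ⊔ A_F ≤ V` -/
theorem B_le_V (oE : OB p S₀ E KE zE) (oF : OB p S₀ F KF zF) :
    Ab p E ⊔ Ab p F ≤ Vb p G := sup_le oE.sb.AV oF.sb.AV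

/-- an element commuting with `z_E` and normalizing `P` normalizes `Q_E` -/
theorem conj_Q_of_comm (gf : GF p S₀) (oE : OB p S₀ E KE zE) {l : G}
    (hlz : l * zE = zE * l) : ∀ u ∈ Qb p E, l * u * l⁻¹ ∈ Qb p E := by
  have hQ := oE.ZQ
  have hz' : l⁻¹ * zE⁻¹ * l = zE⁻¹ := by
    have h1 : zE⁻¹ * l = l * zE⁻¹ := by
      calc zE⁻¹ * l = zE⁻¹ * (l * zE) * zE⁻¹ := by group
        _ = zE⁻¹ * (zE * l) * zE⁻¹ := by rw [hlz]
        _ = l * zE⁻¹ := by group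
    calc l⁻¹ * zE⁻¹ * l = l⁻¹ * (zE⁻¹ * l) := by group
      _ = l⁻¹ * (l * zE⁻¹) := by rw [h1]
      _ = zE⁻¹ := by group
  have key : ∀ u ∈ Subgroup.closure {g : G | ∃ c ∈ pCore p G, g = zE * c * zE⁻¹ * c⁻¹},
      l * u * l⁻¹ ∈ Subgroup.closure {g : G | ∃ c ∈ pCore p G, g = zE * c * zE⁻¹ * c⁻¹} := by
    intro u hu
    refine Subgroup.closure_induction (p := fun u _ => l * u * l⁻¹ ∈
      Subgroup.closure {g : G | ∃ c ∈ pCore p G, g = zE * c * zE⁻¹ * c⁻¹}) ?_ ?_ ?_ ?_ hu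
    · rintro g ⟨c, hc, rfl⟩
      have e : l * (zE * c * zE⁻¹ * c⁻¹) * l⁻¹ =
          zE * (l * c * l⁻¹) * zE⁻¹ * (l * c * l⁻¹)⁻¹ := by
        calc l * (zE * c * zE⁻¹ * c⁻¹) * l⁻¹ = (l * zE) * c * zE⁻¹ * c⁻¹ * l⁻¹ := by group
          _ = (zE * l) * c * zE⁻¹ * c⁻¹ * l⁻¹ := by rw [hlz]
          _ = zE * l * c * (l⁻¹ * zE⁻¹ * l) * c⁻¹ * l⁻¹ := by rw [hz']
          _ = zE * (l * c * l⁻¹) * zE⁻¹ * (l * c * l⁻¹)⁻¹ := by group
      rw [e]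
      exact Subgroup.subset_closure ⟨l * c * l⁻¹, gf.Pn l c hc, rfl⟩
    · have e : l * 1 * l⁻¹ = 1 := by group
      rw [e]
      exact Subgroup.one_mem _
    · intro a b _ _ ha hb
      have e : l * (a * b) * l⁻¹ = (l * a * l⁻¹) * (l * b * l⁻¹) := by group
      rw [e]
      exact Subgroup.mul_mem _ ha hb
    · intro a _ ha
      have e : l * a⁻¹ * l⁻¹ = (l * a * l⁻¹)⁻¹ := by group
      rw [e]
      exact Subgroup.inv_mem _ ha
  intro u hu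
  have h := key u (hQ ▸ hu)
  exact hQ ▸ h

end Blocks

end Cfsg.Agent.Lib.Helper24.SnB
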