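import Mathlib
import Cfsg.Agent.Lib.Helper83.SnB.Q8MDefs
import Cfsg.Agent.Lib.Helper24.SnB.Q8MTools

/-!
# S2986 (helper41 / helper83 project, [Q8-M]): sub-package [M-OXXo] (helper24)

Orthogonal `A`'s, both blocks exceptional, orthogonal case: `[E, F] = 1`.
-/

set_option autoImplicit false

namespace Cfsg.Agent.Lib.Helper24.SnB

open Cfsg Cfsg.Agent.Lib.Helper41.SnB Cfsg.Agent.Lib.Helper34.SnB Cfsg.Agent.Lib.Helper83.SnB
open scoped commutatorElement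

universe u

variable {G : Type u} [Group G] [Finite G] {p : ℕ} [Fact p.Prime] {S₀ E F KE KF : Subgroup G}
  {zE zF : G}

/-- Step 1: `K_E` and `K_F` commute. -/
theorem oxxo_KK (gf : GF p S₀) (oE : OB p S₀ E KE zE) (oF : OB p S₀ F KF zF)
    (hc1 : Cz KF (Ab p E)) (hc2 : Cz KE (Ab p F)) (ho : Orth p E F KE KF) :
    ∀ k ∈ KE, ∀ l ∈ KF, k * l = l * k := by
  intro k hk l hl
  have hgS : k * l * k⁻¹ * l⁻¹ ∈ S₀ :=
    S₀.mul_mem (S₀.mul_mem (S₀.mul_mem (oE.q8.KS hk) (oF.q8.KS hl))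
      (S₀.inv_mem (oE.q8.KS hk))) (S₀.inv_mem (oF.q8.KS hl))
  obtain ⟨h0, h1⟩ := comm_KK_VB oE oF hc1 hc2 hk hl
  have hV : ∀ x : G, x ∈ Subgroup.normalizer ((Vb p G : Subgroup G) : Set G) :=
    mem_normalizer_V gf
  -- the subgroup `R`
  have hQER : Qb p E ≤ Qb p E ⊔ Qb p F ⊔ Vb p G := le_sup_left.trans le_sup_left
  have hQFR : Qb p F ≤ Qb p E ⊔ Qb p F ⊔ Vb p G := le_sup_right.trans le_sup_left
  have hVR : Vb p G ≤ Qb p E ⊔ Qb p F ⊔ Vb p G := le_sup_right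
  have hRP : Qb p E ⊔ Qb p F ⊔ Vb p G ≤ pCore p G :=
    sup_le (sup_le oE.sb.QP oF.sb.QP) gf.VP
  -- `g` is trivial on `R / V`
  have hlE : l ∈ trivOn (Qb p E) (Vb p G) := ⟨hV l, ho.1 l hl⟩
  have hkF : k ∈ trivOn (Qb p F) (Vb p G) := ⟨hV k, ho.2 k hk⟩
  have hgE : k * l * k⁻¹ * l⁻¹ ∈ trivOn (Qb p E) (Vb p G) :=
    Subgroup.mul_mem _ (trivOn_conj hlE (hV k) (K_conj_Q' oE hk)) (Subgroup.inv_mem _ hlE)
  have hgF : k * l * k⁻¹ * l⁻¹ ∈ trivOn (Qb p F) (Vb p G) := by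
    have e : k * l * k⁻¹ * l⁻¹ = k * (l * k⁻¹ * l⁻¹) := by group
    rw [e]
    exact Subgroup.mul_mem _ hkF
      (trivOn_conj (Subgroup.inv_mem _ hkF) (hV l) (K_conj_Q' oF hl))
  have h2 : ∀ r ∈ Qb p E ⊔ Qb p F ⊔ Vb p G,
      (k * l * k⁻¹ * l⁻¹) * r * (k * l * k⁻¹ * l⁻¹)⁻¹ * r⁻¹ ∈ Vb p G := by
    have hle : Qb p E ⊔ Qb p F ⊔ Vb p G ≤ fixMod (k * l * k⁻¹ * l⁻¹) (Vb p G) := by
      refine sup_le (sup_le ?_ ?_) ?_
      · intro u hu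
        exact ⟨hV u, hgE.2 u hu⟩
      · intro u hu
        exact ⟨hV u, hgF.2 u hu⟩
      · intro v hv
        exact ⟨hV v, (Vb p G).mul_mem (gf.Vn _ v hv) ((Vb p G).inv_mem hv)⟩
    intro r hr
    exact (hle hr).2
  -- `k`, `l` normalize `R` and are trivial on `P / R`
  have hkR : ∀ k ∈ KE, ∀ y ∈ Qb p E ⊔ Qb p F ⊔ Vb p G,
      k * y * k⁻¹ ∈ Qb p E ⊔ Qb p F ⊔ Vb p G := by
    intro k hk
    refine conj_sup_mem (conj_sup_mem ?_ ?_) ?_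
    · intro y hy
      exact hQER (K_conj_Q oE hk y hy)
    · intro y hy
      have e : k * y * k⁻¹ = (k * y * k⁻¹ * y⁻¹) * y := by group
      rw [e]
      exact Subgroup.mul_mem _ (hVR (ho.2 k hk y hy)) (hQFR hy)
    · intro y hy
      exact hVR (gf.Vn k y hy)
  have hlR : ∀ l ∈ KF, ∀ y ∈ Qb p E ⊔ Qb p F ⊔ Vb p G,
      l * y * l⁻¹ ∈ Qb p E ⊔ Qb p F ⊔ Vb p G := by
    intro l hl
    refine conj_sup_mem (conj_sup_mem ?_ ?_) ?_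
    · intro y hy
      have e : l * y * l⁻¹ = (l * y * l⁻¹ * y⁻¹) * y := by group
      rw [e]
      exact Subgroup.mul_mem _ (hVR (ho.1 l hl y hy)) (hQER hy)
    · intro y hy
      exact hQFR (K_conj_Q oF hl y hy)
    · intro y hy
      exact hVR (gf.Vn l y hy)
  have hkT : k ∈ trivOn (pCore p G) (Qb p E ⊔ Qb p F ⊔ Vb p G) := by
    refine ⟨mem_normalizer_of_both (hkR k hk) (fun y hy => ?_), fun c hc => ?_⟩
    · have h := hkR k⁻¹ (KE.inv_mem hk) y hy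
      rwa [inv_inv] at h
    · exact hQER (oE.b1.PXQ k (oE.q8.KX hk) c hc)
  have hlT : l ∈ trivOn (pCore p G) (Qb p E ⊔ Qb p F ⊔ Vb p G) := by
    refine ⟨mem_normalizer_of_both (hlR l hl) (fun y hy => ?_), fun c hc => ?_⟩
    · have h := hlR l⁻¹ (KF.inv_mem hl) y hy
      rwa [inv_inv] at h
    · exact hQFR (oF.b1.PXQ l (oF.q8.KX hl) c hc)
  have hgT : k * l * k⁻¹ * l⁻¹ ∈ trivOn (pCore p G) (Qb p E ⊔ Qb p F ⊔ Vb p G) :=
    Subgroup.mul_mem _ (Subgroup.mul_mem _ (Subgroup.mul_mem _ hkT hlT)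
      (Subgroup.inv_mem _ hkT)) (Subgroup.inv_mem _ hlT)
  have hg1 : k * l * k⁻¹ * l⁻¹ = 1 :=
    chain3 gf hgS (Ab p E ⊔ Ab p F) (Qb p E ⊔ Qb p F ⊔ Vb p G) (B_le_V oE oF) hVR hRP h0 h1 h2
      hgT.2
  calc k * l = (k * l * k⁻¹ * l⁻¹) * (l * k) := by group
    _ = l * k := by rw [hg1, one_mul]

/-- Step 2: an element of `S₀` commuting with `z_E`, centralizing `A_E` and trivial on
`Q_E` modulo `V` centralizes `Q_E` (exceptional block). -/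
theorem oxxo_cent_Q (gf : GF p S₀) (oE : OB p S₀ E KE zE) (xE : XB p S₀ E KE zE) {l : G}
    (hl : l ∈ S₀) (hlz : l * zE = zE * l) (hlA : ∀ a ∈ Ab p E, l * a = a * l)
    (hlV : ∀ u ∈ Qb p E, l * u * l⁻¹ * u⁻¹ ∈ Vb p G) : ∀ u ∈ Qb p E, l * u = u * l := by
  have hnQ : ∀ u ∈ Qb p E, l * u * l⁻¹ ∈ Qb p E := conj_Q_of_comm gf oE hlz
  have hW : ∀ u ∈ Qb p E, l * u * l⁻¹ * u⁻¹ ∈ Wb p E := fun u hu =>
    oE.b1.VQW (Subgroup.mem_inf.mpr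
      ⟨hlV u hu, (Qb p E).mul_mem (hnQ u hu) ((Qb p E).inv_mem hu)⟩)
  have hZ : ∀ ζ ∈ Zb p E, l * ζ = ζ * l := by
    have hle : ⁅Qb p E, Qb p E⁆ ≤ Subgroup.centralizer ({l} : Set G) := by
      rw [Subgroup.commutator_le]
      intro u hu u' hu'
      rw [Subgroup.mem_centralizer_iff]
      intro h hh
      rw [Set.mem_singleton_iff] at hh
      subst hh
      obtain ⟨w, hw⟩ : ∃ w, w = h * u * h⁻¹ * u⁻¹ := ⟨_, rfl⟩
      obtain ⟨w', hw'⟩ : ∃ w', w' = h * u' * h⁻¹ * u'⁻¹ := ⟨_, rfl⟩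
      have hwW : w ∈ Wb p E := hw ▸ hW u hu
      have hw'W : w' ∈ Wb p E := hw' ▸ hW u' hu'
      have key : (w * u) * (w' * u') * (w * u)⁻¹ * (w' * u')⁻¹ = u * u' * u⁻¹ * u'⁻¹ :=
        comm_mul_central (oE.bf.WcQ w hwW u hu) (oE.bf.WcQ w hwW u' hu')
          (oE.bf.WcQ w' hw'W u hu) (oE.bf.WcQ w' hw'W u' hu')
          (oE.bf.WcQ w hwW w' (oE.bf.WQ hw'W))
      have e1 : h * ⁅u, u'⁆ * h⁻¹ = (w * u) * (w' * u') * (w * u)⁻¹ * (w' * u')⁻¹ := by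
        rw [commutatorElement_def, hw, hw']
        group
      have e2 : h * ⁅u, u'⁆ * h⁻¹ = ⁅u, u'⁆ := by
        rw [e1, key, commutatorElement_def]
      calc h * ⁅u, u'⁆ = (h * ⁅u, u'⁆ * h⁻¹) * h := by group
        _ = ⁅u, u'⁆ * h := by rw [e2]
    intro ζ hζ
    have h1 : ζ ∈ ⁅Qb p E, Qb p E⁆ := by
      rw [xE.exc.comm]
      exact hζ
    have h2 := hle h1
    rw [Subgroup.mem_centralizer_iff] at h2
    exact h2 l rfl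
  have hWc : ∀ w ∈ Wb p E, l * w = w * l := by
    intro w hw
    obtain ⟨a, ha, ζ, hζ, rfl⟩ := xE.exc.WAZ w hw
    calc l * (a * ζ) = (l * a) * ζ := by group
      _ = (a * l) * ζ := by rw [hlA a ha]
      _ = a * (l * ζ) := by group
      _ = a * (ζ * l) := by rw [hZ ζ hζ]
      _ = a * ζ * l := by group
  exact coprimeChain (Qb p E) (Wb p E) l (fun h hh => gf.Pp h (oE.sb.QP hh)) (gf.S2 l hl)
    oE.bf.WQ hWc hW

/-- Step 3: `Q_E` and `Q_F` commute, if `K_F` centralizes `Q_E`. -/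
theorem oxxo_QQ (oE : OB p S₀ E KE zE) (oF : OB p S₀ F KF zF)
    (hKFQE : ∀ l ∈ KF, ∀ u ∈ Qb p E, l * u = u * l) :
    ∀ u ∈ Qb p E, ∀ v ∈ Qb p F, u * v = v * u := by
  intro u hu
  have hzu : zF * u = u * zF := hKFQE zF oF.q8.zK u hu
  -- `u` commutes with `[z_F, v]` for `v ∈ Q_F`
  have hcomm : ∀ v ∈ Qb p F, u * (zF * v * zF⁻¹ * v⁻¹) = (zF * v * zF⁻¹ * v⁻¹) * u := by
    intro v hv
    obtain ⟨y, hy⟩ : ∃ y, y = u * v * u⁻¹ * v⁻¹ := ⟨_, rfl⟩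
    have hyQE : y ∈ Qb p E := by
      have e : y = u * (v * u⁻¹ * v⁻¹) := by rw [hy]; group
      rw [e]
      exact (Qb p E).mul_mem hu
        (oE.bf.nQ v (oE.sb.PN (oF.sb.QP hv)) u⁻¹ ((Qb p E).inv_mem hu))
    have hyQF : y ∈ Qb p F := by
      rw [hy]
      exact (Qb p F).mul_mem (oF.bf.nQ u (oF.sb.PN (oE.sb.QP hu)) v hv) ((Qb p F).inv_mem hv)
    have hyz : zF * y = y * zF := hKFQE zF oF.q8.zK y hyQE
    have hyZ : y ∈ Zb p F := oF.CQz y hyQF hyz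
    have hyF : ∀ x ∈ F, y * x = x * y := oF.bf.ZC y hyZ
    have htF : zF * v * zF⁻¹ * v⁻¹ ∈ F := by
      have hzF : zF ∈ F := oF.q8.KX oF.q8.zK
      have hvF : v ∈ F := oF.bf.QX hv
      exact F.mul_mem (F.mul_mem (F.mul_mem hzF hvF) (F.inv_mem hzF)) (F.inv_mem hvF)
    have e1 : u * zF * u⁻¹ = zF := by
      rw [← hzu, mul_inv_cancel_right]
    have e2 : u * v * u⁻¹ = y * v := by rw [hy]; group
    have e3 : zF * y * zF⁻¹ = y := by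
      rw [hyz, mul_inv_cancel_right]
    have e4 : y * (zF * v * zF⁻¹ * v⁻¹) * y⁻¹ = zF * v * zF⁻¹ * v⁻¹ := by
      rw [hyF _ htF, mul_inv_cancel_right]
    have e5 : u * (zF * v * zF⁻¹ * v⁻¹) * u⁻¹ = zF * v * zF⁻¹ * v⁻¹ := by
      calc u * (zF * v * zF⁻¹ * v⁻¹) * u⁻¹
          = (u * zF * u⁻¹) * (u * v * u⁻¹) * (u * zF * u⁻¹)⁻¹ * (u * v * u⁻¹)⁻¹ := by group
        _ = zF * (y * v) * zF⁻¹ * (y * v)⁻¹ := by rw [e1, e2]
        _ = (zF * y * zF⁻¹) * (zF * v * zF⁻¹ * v⁻¹) * y⁻¹ := by group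
        _ = y * (zF * v * zF⁻¹ * v⁻¹) * y⁻¹ := by rw [e3]
        _ = zF * v * zF⁻¹ * v⁻¹ := e4
    calc u * (zF * v * zF⁻¹ * v⁻¹) = (u * (zF * v * zF⁻¹ * v⁻¹) * u⁻¹) * u := by group
      _ = (zF * v * zF⁻¹ * v⁻¹) * u := by rw [e5]
  have hle : Subgroup.closure {g : G | ∃ c ∈ pCore p G, g = zF * c * zF⁻¹ * c⁻¹} ≤
      Subgroup.centralizer ({u} : Set G) := by
    rw [Subgroup.closure_le]
    rintro g ⟨c, hc, rfl⟩
    rw [SetLike.mem_coe, Subgroup.mem_centralizer_iff]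
    intro h hh
    rw [Set.mem_singleton_iff] at hh
    subst hh
    obtain ⟨v, hv, c₁, _, rfl, hzc⟩ := oF.PQC c hc
    have e : zF * (v * c₁) * zF⁻¹ * (v * c₁)⁻¹ = zF * v * zF⁻¹ * v⁻¹ := by
      have e' : zF * c₁ * zF⁻¹ = c₁ := by
        rw [hzc, mul_inv_cancel_right]
      calc zF * (v * c₁) * zF⁻¹ * (v * c₁)⁻¹
          = zF * v * zF⁻¹ * (zF * c₁ * zF⁻¹) * c₁⁻¹ * v⁻¹ := by group
        _ = zF * v * zF⁻¹ * c₁ * c₁⁻¹ * v⁻¹ := by rw [e']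
        _ = zF * v * zF⁻¹ * v⁻¹ := by group
    rw [e]
    exact hcomm v hv
  intro v hv
  have h1 : v ∈ Subgroup.closure {g : G | ∃ c ∈ pCore p G, g = zF * c * zF⁻¹ * c⁻¹} :=
    oF.ZQ ▸ hv
  have h2 := hle h1
  rw [Subgroup.mem_centralizer_iff] at h2
  exact h2 u rfl

/-- [M-OXXo] -/
theorem pkgOXXo : PkgOXXo.{u} := by
  intro G _ _ p _ S₀ E F KE KF zE zF gf oE oF hc1 hc2 xE xF ho
  have hKK : ∀ k ∈ KE, ∀ l ∈ KF, k * l = l * k := oxxo_KK gf oE oF hc1 hc2 ho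
  have hKFQE : ∀ l ∈ KF, ∀ u ∈ Qb p E, l * u = u * l := fun l hl =>
    oxxo_cent_Q gf oE xE (oF.q8.KS hl) (hKK zE oE.q8.zK l hl).symm (hc1 l hl) (ho.1 l hl)
  have hKEQF : ∀ k ∈ KE, ∀ v ∈ Qb p F, k * v = v * k := fun k hk =>
    oxxo_cent_Q gf oF xF (oE.q8.KS hk) (hKK k hk zF oF.q8.zK) (hc2 k hk) (ho.2 k hk)
  have hQQ : ∀ u ∈ Qb p E, ∀ v ∈ Qb p F, u * v = v * u := oxxo_QQ oE oF hKFQE
  rw [Subgroup.commutator_eq_bot_iff_le_centralizer]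
  intro e he
  rw [Subgroup.mem_centralizer_iff]
  intro f hf
  obtain ⟨q, hq, k, hk, rfl⟩ := oE.q8.dec e he
  obtain ⟨q', hq', l, hl, rfl⟩ := oF.q8.dec f hf
  calc (q' * l) * (q * k) = q' * (l * q) * k := by group
    _ = q' * (q * l) * k := by rw [hKFQE l hl q hq]
    _ = (q' * q) * (l * k) := by group
    _ = (q * q') * (k * l) := by rw [← hQQ q hq q' hq', hKK k hk l hl]
    _ = q * (q' * k) * l := by group
    _ = q * (k * q') * l := by rw [hKEQF k hk q' hq']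
    _ = (q * k) * (q' * l) := by group

end Cfsg.Agent.Lib.Helper24.SnB
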