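import Mathlib
import Cfsg.Agent.Lib.Helper34.SnB.QSDefs
import Cfsg.Agent.Lib.Helper53.PGroups

/-!
# S2986 (helper41 / helper34 project): sub-package [QS-NEQ] (helper24)

If `E` has a `p`-element outside `O_p(E)` then `A_E ≠ A_F`.
-/

set_option autoImplicit false

namespace Cfsg.Agent.Lib.Helper24.SnB

open Cfsg Cfsg.Agent.Lib.Helper41.SnB Cfsg.Agent.Lib.Helper34.SnB

universe u

/-- the cyclic group generated by an element of `p`-power order is a `p`-group -/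
theorem zpowers_isPGroup {G : Type u} [Group G] {p : ℕ} {t : G} {k : ℕ} (ht : t ^ (p ^ k) = 1) :
    IsPGroup p ↥(Subgroup.zpowers t) := by
  rintro ⟨g, hg⟩
  obtain ⟨z, rfl⟩ := Subgroup.mem_zpowers_iff.mp hg
  refine ⟨k, Subtype.ext ?_⟩
  show (t ^ z) ^ (p ^ k) = 1
  rw [← zpow_natCast, ← zpow_mul, mul_comm, zpow_mul, zpow_natCast, ht, one_zpow]

/-- the commutator map `a ↦ [a, t]` on an abelian subgroup normalized by `t`: its image -/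
def commImage {G : Type u} [Group G] (A : Subgroup G) (t : G)
    (hab : ∀ a ∈ A, ∀ b ∈ A, a * b = b * a) (hn : ∀ a ∈ A, t * a * t⁻¹ ∈ A) : Subgroup G where
  carrier := {y | ∃ a ∈ A, y = a * t * a⁻¹ * t⁻¹}
  one_mem' := ⟨1, A.one_mem, by group⟩
  mul_mem' := by
    rintro x y ⟨a, ha, rfl⟩ ⟨b, hb, rfl⟩
    refine ⟨a * b, A.mul_mem ha hb, ?_⟩
    have hc : t * a⁻¹ * t⁻¹ ∈ A := hn _ (A.inv_mem ha)
    have hd : t * b⁻¹ * t⁻¹ ∈ A := hn _ (A.inv_mem hb)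
    have h1 : (t * a⁻¹ * t⁻¹) * b = b * (t * a⁻¹ * t⁻¹) := hab _ hc _ hb
    have h2 : (t * a⁻¹ * t⁻¹) * (t * b⁻¹ * t⁻¹) = (t * b⁻¹ * t⁻¹) * (t * a⁻¹ * t⁻¹) :=
      hab _ hc _ hd
    calc a * t * a⁻¹ * t⁻¹ * (b * t * b⁻¹ * t⁻¹)
        = a * ((t * a⁻¹ * t⁻¹) * b) * (t * b⁻¹ * t⁻¹) := by group
      _ = a * (b * (t * a⁻¹ * t⁻¹)) * (t * b⁻¹ * t⁻¹) := by rw [h1]
      _ = a * b * ((t * a⁻¹ * t⁻¹) * (t * b⁻¹ * t⁻¹)) := by group
      _ = a * b * ((t * b⁻¹ * t⁻¹) * (t * a⁻¹ * t⁻¹)) := by rw [h2]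
      _ = a * b * t * (a * b)⁻¹ * t⁻¹ := by group
  inv_mem' := by
    rintro x ⟨a, ha, rfl⟩
    refine ⟨a⁻¹, A.inv_mem ha, ?_⟩
    have hc : t * a * t⁻¹ ∈ A := hn _ ha
    have h1 : (t * a * t⁻¹) * a⁻¹ = a⁻¹ * (t * a * t⁻¹) := hab _ hc _ (A.inv_mem ha)
    calc (a * t * a⁻¹ * t⁻¹)⁻¹ = (t * a * t⁻¹) * a⁻¹ := by group
      _ = a⁻¹ * (t * a * t⁻¹) := h1
      _ = a⁻¹ * t * a⁻¹⁻¹ * t⁻¹ := by group

theorem mem_commImage {G : Type u} [Group G] {A : Subgroup G} {t : G}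
    {hab : ∀ a ∈ A, ∀ b ∈ A, a * b = b * a} {hn : ∀ a ∈ A, t * a * t⁻¹ ∈ A} {y : G} :
    y ∈ commImage A t hab hn ↔ ∃ a ∈ A, y = a * t * a⁻¹ * t⁻¹ := Iff.rfl

theorem commImage_le {G : Type u} [Group G] {A : Subgroup G} {t : G}
    {hab : ∀ a ∈ A, ∀ b ∈ A, a * b = b * a} {hn : ∀ a ∈ A, t * a * t⁻¹ ∈ A} :
    commImage A t hab hn ≤ A := by
  rintro y ⟨a, ha, rfl⟩
  have hc : t * a⁻¹ * t⁻¹ ∈ A := hn _ (A.inv_mem ha)
  have : a * t * a⁻¹ * t⁻¹ = a * (t * a⁻¹ * t⁻¹) := by group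
  rw [this]
  exact A.mul_mem ha hc

/-- if `t` fixes a nontrivial element of the finite abelian group `A`, the commutator map is not
onto -/
theorem commImage_ne {G : Type u} [Group G] [Finite G] {A : Subgroup G} {t : G}
    {hab : ∀ a ∈ A, ∀ b ∈ A, a * b = b * a} {hn : ∀ a ∈ A, t * a * t⁻¹ ∈ A}
    {w : G} (hw : w ∈ A) (hw1 : w ≠ 1) (hwt : t * w = w * t) : commImage A t hab hn ≠ A := by
  intro hYA
  have hmem : ∀ a : ↥A, (a : G) * t * (a : G)⁻¹ * t⁻¹ ∈ A := fun a =>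
    commImage_le (hab := hab) (hn := hn) ⟨a, a.2, rfl⟩
  have hsurj : Function.Surjective (fun a : ↥A => (⟨(a : G) * t * (a : G)⁻¹ * t⁻¹, hmem a⟩ : ↥A)) := by
    rintro ⟨y, hy⟩
    have hy' : y ∈ commImage A t hab hn := by rw [hYA]; exact hy
    obtain ⟨a, ha, rfl⟩ := hy'
    exact ⟨⟨a, ha⟩, rfl⟩
  have hinj := Finite.injective_iff_surjective.mpr hsurj
  have h1 : (⟨w, hw⟩ : ↥A) = 1 := by
    apply hinj
    apply Subtype.ext
    show w * t * w⁻¹ * t⁻¹ = (1 : G) * t * (1 : G)⁻¹ * t⁻¹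
    rw [← hwt]
    group
  exact hw1 (congrArg Subtype.val h1)

/-- Sub-package [QS-NEQ]. -/
theorem pkgNeq : PkgNeq.{u} := by
  intro G _ _ p _ E F sE sF fE fF hC hEF hFE t htE htQ hk hAeq
  obtain ⟨k, htk⟩ := hk
  obtain ⟨A, hA⟩ : ∃ A : Subgroup G, A = Ab p E := ⟨_, rfl⟩
  have hA' : A = Ab p F := hA.trans hAeq
  have hAW : A ≤ Wb p E := hA ▸ fE.AW
  have hab : ∀ a ∈ A, ∀ b ∈ A, a * b = b * a :=
    fun a ha b hb => fE.WcQ a (hAW ha) b (fE.WQ (hAW hb))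
  have hAp : IsPGroup p ↥A := fE.Qp.to_le (hAW.trans fE.WQ)
  have hAne : A ≠ ⊥ := by
    intro h
    apply fE.AZ
    rw [← hA, h]
    exact bot_le
  have htN : t ∈ Subgroup.normalizer (E : Set G) := Subgroup.le_normalizer htE
  have hn : ∀ a ∈ A, t * a * t⁻¹ ∈ A := by
    intro a ha
    rw [hA] at ha ⊢
    exact fE.nA t htN a ha
  have hn' : ∀ a ∈ A, t⁻¹ * a * t⁻¹⁻¹ ∈ A := by
    intro a ha
    rw [hA] at ha ⊢
    exact fE.nA t⁻¹ (Subgroup.inv_mem _ htN) a ha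
  -- a nontrivial fixed point of `t` on `A`
  have htnA : t ∈ Subgroup.normalizer (A : Set G) := by
    rw [Subgroup.mem_normalizer_iff]
    intro h
    constructor
    · exact hn h
    · intro hh
      have h1 := hn' _ hh
      have h2 : t⁻¹ * (t * h * t⁻¹) * t⁻¹⁻¹ = h := by group
      rwa [h2] at h1
  have hZn : Subgroup.zpowers t ≤ Subgroup.normalizer (A : Set G) :=
    (Subgroup.zpowers_le).mpr htnA
  have hHp : IsPGroup p ↥(A ⊔ Subgroup.zpowers t) :=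
    IsPGroup.to_sup_of_normal_left' hAp (zpowers_isPGroup htk) hZn
  obtain ⟨w, hwA, hw1, hwc⟩ := Cfsg.Agent.Lib.Helper53.exists_mem_center_of_normal_subgroup hHp
    (le_sup_left : A ≤ A ⊔ Subgroup.zpowers t) (sup_le Subgroup.le_normalizer hZn) hAne
  have hwt : t * w = w * t := hwc t (le_sup_right (a := A) (Subgroup.mem_zpowers t))
  -- the image `Y` of the commutator map
  obtain ⟨Y, hY⟩ : ∃ Y : Subgroup G, Y = commImage A t hab hn := ⟨_, rfl⟩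
  have hYA : Y ≤ A := hY ▸ commImage_le
  have hYne : Y ≠ A := hY ▸ commImage_ne hwA hw1 hwt
  have hYmem : ∀ a ∈ A, a * t * a⁻¹ * t⁻¹ ∈ Y := fun a ha => by
    rw [hY]; exact ⟨a, ha, rfl⟩
  -- `Y` is `F`-invariant
  have hFnA : ∀ f ∈ F, ∀ a ∈ A, f * a * f⁻¹ ∈ A := by
    intro f hf a ha
    rw [hA'] at ha ⊢
    exact fF.nA f (Subgroup.le_normalizer hf) a ha
  have hYF : Nz F Y := by
    intro f hf y hy
    rw [hY] at hy
    obtain ⟨a, ha, rfl⟩ := hy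
    have ha' : f * a * f⁻¹ ∈ A := hFnA f hf a ha
    have hcP : f * t * f⁻¹ * t⁻¹ ∈ pCore p G := by
      have h1 := hC t htE f hf
      have h2 : f * t * f⁻¹ * t⁻¹ = (t * f * t⁻¹ * f⁻¹)⁻¹ := by group
      rw [h2]
      exact Subgroup.inv_mem _ h1
    have hv : t * (f * a * f⁻¹)⁻¹ * t⁻¹ ∈ A := hn _ (A.inv_mem ha')
    have hcv : (f * t * f⁻¹ * t⁻¹) * (t * (f * a * f⁻¹)⁻¹ * t⁻¹) =
        (t * (f * a * f⁻¹)⁻¹ * t⁻¹) * (f * t * f⁻¹ * t⁻¹) := by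
      have hv' : t * (f * a * f⁻¹)⁻¹ * t⁻¹ ∈ Ab p E := hA ▸ hv
      exact fE.PA _ hcP _ hv'
    have key : f * (a * t * a⁻¹ * t⁻¹) * f⁻¹ =
        (f * a * f⁻¹) * t * (f * a * f⁻¹)⁻¹ * t⁻¹ := by
      calc f * (a * t * a⁻¹ * t⁻¹) * f⁻¹
          = (f * a * f⁻¹) * ((f * t * f⁻¹ * t⁻¹) * (t * (f * a * f⁻¹)⁻¹ * t⁻¹)) *
              (f * t * f⁻¹ * t⁻¹)⁻¹ := by group
        _ = (f * a * f⁻¹) * ((t * (f * a * f⁻¹)⁻¹ * t⁻¹) * (f * t * f⁻¹ * t⁻¹)) *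
              (f * t * f⁻¹ * t⁻¹)⁻¹ := by rw [hcv]
        _ = (f * a * f⁻¹) * t * (f * a * f⁻¹)⁻¹ * t⁻¹ := by group
    rw [key]
    exact hYmem _ ha'
  -- `Y ≤ Z_F`
  have hYZF : Y ≤ Zb p F := by
    rcases fF.irr Y (hA' ▸ hYA) hYF with h | h
    · exact h
    · exact absurd (h.trans hA'.symm) hYne
  -- `B = Z_F ⊓ A ≤ Z_E`
  have hEnF : ∀ e ∈ E, e ∈ Subgroup.normalizer (F : Set G) := by
    intro e he
    rw [Subgroup.mem_normalizer_iff]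
    intro h
    constructor
    · exact hEF e he h
    · intro hh
      have h1 := hEF e⁻¹ (E.inv_mem he) _ hh
      have h2 : e⁻¹ * (e * h * e⁻¹) * e⁻¹⁻¹ = h := by group
      rwa [h2] at h1
  have hBZE : Zb p F ⊓ A ≤ Zb p E := by
    have hBA : Zb p F ⊓ A ≤ Ab p E := hA ▸ inf_le_right
    have hBn : Nz E (Zb p F ⊓ A) := by
      intro e he b hb
      refine Subgroup.mem_inf.mpr ⟨fF.nZ e (hEnF e he) b (Subgroup.mem_inf.mp hb).1, ?_⟩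
      have hb2 := (Subgroup.mem_inf.mp hb).2
      rw [hA] at hb2 ⊢
      exact fE.nA e (Subgroup.le_normalizer he) b hb2
    rcases fE.irr _ hBA hBn with h | h
    · exact h
    · exfalso
      apply fF.AZ
      rw [← hA', hA, ← h]
      exact inf_le_left
  -- `t` acts trivially on `W_E / Z_E`, so `t ∈ Q_E`
  apply htQ
  apply sE.faithW t htE
  intro w' hw'
  obtain ⟨a, ha, z, hz, rfl⟩ := fE.WAZ w' hw'
  have ha2 : a ∈ A := hA ▸ ha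
  have hzt : z * t = t * z := fE.ZC z hz t htE
  have h3 : a * t * a⁻¹ * t⁻¹ ∈ Zb p E :=
    hBZE (Subgroup.mem_inf.mpr ⟨hYZF (hYmem a ha2), hYA (hYmem a ha2)⟩)
  have h4 : t * (a * z) * t⁻¹ * (a * z)⁻¹ = (a * t * a⁻¹ * t⁻¹)⁻¹ := by
    calc t * (a * z) * t⁻¹ * (a * z)⁻¹ = t * a * (z * t⁻¹ * z⁻¹) * a⁻¹ := by group
      _ = t * a * t⁻¹ * a⁻¹ := by
        have : z * t⁻¹ * z⁻¹ = t⁻¹ := by
          have h5 : z * t⁻¹ = t⁻¹ * z := by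
            calc z * t⁻¹ = t⁻¹ * (t * z) * t⁻¹ := by group
              _ = t⁻¹ * (z * t) * t⁻¹ := by rw [hzt]
              _ = t⁻¹ * z := by group
          rw [h5]; group
        rw [this]
      _ = (a * t * a⁻¹ * t⁻¹)⁻¹ := by group
  rw [h4]
  exact Subgroup.inv_mem _ h3

end Cfsg.Agent.Lib.Helper24.SnB
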